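import Cfsg.Agent.U4R.Vec
import Cfsg.Agent.S0058
import Cfsg.Agent.LES.Holo

/-! The extra relation of `U4(3)` from the centraliser of an element of order three (helper24): `three_abs`. -/

set_option autoImplicit false
set_option maxRecDepth 100000

namespace Cfsg.Agent.U4R

open Cfsg.Agent.HJ Cfsg.Agent.Comp Cfsg.Agent.Spor Subgroup

variable {G : Type*} [Group G]

theorem exists_conj_of_norm [Finite G] {p : ℕ} [Fact p.Prime] {D E : Subgroup G} (hD : IsPGroup p D)
    (h : ∀ g, (∀ d ∈ D, κ g d ∈ D) → (∃ k, g ^ p ^ k = 1) → g ∈ D) (hE : IsPGroup p E) : ∃ g, ∀ u ∈ E, κ g u ∈ D := by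
  obtain ⟨S, hS⟩ := hD.exists_le_sylow
  have h1 : (S : Subgroup G) ≤ D := by
    by_contra e
    have := S.isPGroup'.isNilpotent
    obtain ⟨y, hy, hy'⟩ := SetLike.exists_of_lt (Group.normalizerCondition_of_isNilpotent (D.subgroupOf S)
      (lt_top_iff_ne_top.2 fun e' => e (subgroupOf_eq_top.1 e')))
    obtain ⟨k, hk⟩ := S.isPGroup' y
    exact hy' (h y (fun d hd => (mem_normalizer_iff.1 hy ⟨d, hS hd⟩).1 hd) ⟨k, congrArg Subtype.val hk⟩)
  obtain ⟨g, hg⟩ := Invol.exists_conj_into_sylow hE S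
  exact ⟨g, fun u hu => h1 (hg u hu)⟩

/-- `u` is a power of `c`. -/
abbrev In3 (c u : G) : Prop := u = 1 ∨ u = c ∨ u = c * c

theorem In3.comm {c u h : G} (e : In3 c u) (hc : Commute h c) : Commute h u := by
  rcases e with rfl | rfl | rfl
  exacts [.one_right _, hc, hc.mul_right hc]

/-- `u` lies in `C(c) ∩ C(d)` and has order dividing three. -/
abbrev InD (c d u : G) : Prop := u * c = c * u ∧ u * d = d * u ∧ u * u * u = 1

theorem three_abs [Finite G] {z t c d u n : G} (zz : z * z = 1) (z1 : z ≠ 1) (tz : t ≠ z) (cz : Commute c z)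
    (dz : Commute d z) (ztc : Commute z t) (cd : InD c d c ∧ InD c d d) (c1 : c ≠ 1) (d1 : d * d ≠ 1) (tc : Commute t c)
    (td : κ t d = d⁻¹) (uc : Commute u c) (uz : κ u z = t) (ut : κ u (z * t) = z) (nc : κ n c = u) (nu : κ n u = c * c)
    (h1 : ∀ h ∈ centralizer {z}, h * c = c * h → (h * h * h * (h * h * h) = 1 ∧ (h * d = d * h → h * h = 1 → h = 1 ∨ h = z)) ∧
      (h * h * h = 1 → In3 c h ∨ In3 c (h * d) ∨ In3 c (h * h * d)))
    (h2 : ∀ h ∈ centralizer {z}, h ^ 24 = 1 ∧ (h * h * h = 1 → ∀ c' ∈ centralizer {z}, h * c = c' * h → InD c d c' →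
      ∀ d' ∈ centralizer {z}, h * d = d' * h → InD c d d' → InD c d h))
    (h3 : ∀ e ∈ centralizer {z}, InD c d e → ∀ f ∈ centralizer {z}, InD c d f → f * e = e * f ∧ (e ≠ 1 →
      (∀ h ∈ centralizer {z}, h * e = f * h → h * f ≠ e * e * h) ∧ (¬ In3 e f →
        (In3 e c ∨ In3 e (f * c) ∨ In3 e (f * f * c)) ∧ (In3 e d ∨ In3 e (f * d) ∨ In3 e (f * f * d))))) :
    Commute d (κ u d) := by
  by_contra hne
  have t2 : t * t = 1 := by rw [← uz, ← map_mul, zz, map_one]
  let Y : Subgroup G := centralizer {c} ⊓ normalizer (zpowers d : Set G)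
  have hY : ∀ g ∈ Y, κ g d = d ∨ κ g d = d⁻¹ := fun g hg =>
    (zpow3 cd.2.2.2 ((mem_normalizer_iff.1 hg.2 d).1 (mem_zpowers d))).resolve_left fun e => d1 (by rw [cj_one.1 e, one_mul])
  have mY : ∀ g, Commute g c → κ g d = d ∨ κ g d = d⁻¹ → g ∈ Y := fun g h e => ⟨memC.2 h, mem_normalizer_fintype fun w hw => by
    obtain ⟨k, rfl⟩ := mem_zpowers_iff.1 hw
    rw [← MulAut.conj_apply, map_zpow]
    rcases e with e | e <;> rw [e]
    exacts [zpow_mem (mem_zpowers d) k, zpow_mem (inv_mem (mem_zpowers d)) k]⟩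
  have zY : z ∈ Y := mY z cz.symm (.inl (cj_eq.2 dz.symm.eq))
  have tY : t ∈ Y := mY t tc (.inr td)
  have uniq : ∀ g, Commute (κ g z) z → Commute (κ g⁻¹ c) z → Commute (κ g⁻¹ d) z → κ g z = z := fun g h e1 e2 => by
    have k : ∀ w, Commute (κ g⁻¹ w) z → κ g z * w = w * κ g z := fun w e => by
      have := (cj_comm (g := g)).2 e.symm.eq
      rwa [← cj_mul g g⁻¹, mul_inv_cancel, map_one, MulAut.one_apply] at this
    exact (((h1 _ (memC.2 h) (k c e1)).1.2 (k d e2) (by rw [← map_mul, zz, map_one])).resolve_left fun e => z1 (cj_one.1 e))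
  have iso : IsIsolatedInvolution (⟨z, zY⟩ : Y) := Invol.isolated_of_forall
    (by rw [← orderOf_coe]; exact Invol.orderOf_two_iff.2 ⟨zz, z1⟩) fun w hw hc => by
      obtain ⟨g, rfl⟩ := isConj_iff.1 hw
      refine Subtype.ext (uniq g (congrArg Subtype.val hc.symm.eq) ?_ ?_)
      · rw [cj_eq.2 (memC.1 (inv_mem g.2).1)]; exact cz
      · rcases hY _ (inv_mem g.2) with e | e <;> rw [e]
        exacts [dz, dz.inv_left]
  let O : Subgroup G := (pPrimeCore 2 Y).map Y.subtype
  have oO : Odd (Nat.card O) := by rw [card_map_of_injective Y.subtype_injective]; exact Invol.odd_oddCore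
  have Od : ∀ o ∈ O, Commute o d := fun o ho => cj_eq.1 ((hY o (map_subtype_le _ ho)).resolve_right fun e =>
    d1 (Invol.mul_self_eq_one_of_odd_inverts e (Invol.odd_orderOf_of_mem oO ho)))
  have key : ∀ g, Commute g c → ¬ Commute d (κ g d) → ∀ o ∈ O, Commute o (κ g z) → o ∈ centralizer {z} := fun g gc hg o ho e => by
    obtain ⟨o, rfl⟩ := (κ g).surjective o
    have f := h1 o (memC.2 (cj_comm.1 e.eq)) (by
      have := memC.1 (map_subtype_le _ ho).1
      rwa [← cj_eq.2 gc.eq, cj_comm] at this)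
    have o3 : o * o * o = 1 := Invol.eq_one_of_odd_of_mul_self (by
      rw [← pow_three', ← (κ g).orderOf_eq, map_pow]; exact Invol.odd_orderOf_pow (Invol.odd_orderOf_of_mem oO ho) 3) f.1.1
    have k : ∀ w, In3 c w → In3 c (κ g w) := fun w hw => by
      rcases hw with rfl | rfl | rfl <;> simp only [In3, map_one, map_mul, cj_eq.2 gc.eq, true_or, or_true]
    have k' : ∀ w, Commute d (κ g w) → In3 c (w * d) → False := fun w h hw => hg (by
      simpa only [map_mul, inv_mul_cancel_left] using h.inv_right.mul_right ((k _ hw).comm (h := d) cd.2.1))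
    rcases f.2 o3 with h | h | h
    · exact memC.2 ((k _ h).comm cz.symm).symm
    · exact (k' _ (Od _ ho).symm h).elim
    · exact (k' _ (by rw [map_mul]; exact (Od _ ho).symm.mul_right (Od _ ho).symm) h).elim
  have hO : O ≤ centralizer {z} := by
    have hV : ∀ w, w ∈ closure ({z, t} : Set G) → w = 1 ∨ w = z ∨ w = t ∨ w = z * t := fun w hw => by
      obtain ⟨k, h⟩ := (Invol.mem_closure_pair_iff zz t2 w).1 hw
      have : (z * t) ^ k = 1 ∨ (z * t) ^ k = z * t := by
        have e : (z * t) ^ (2 : ℤ) = 1 := by rw [zpow_two, ← pow_two, ztc.mul_pow, pow_two, pow_two, zz, t2, one_mul]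
        rw [zpow_eq_zpow_emod k e]
        rcases Int.emod_two_eq_zero_or_one k with e | e <;> simp [e]
      rcases h with rfl | rfl <;> rcases this with e | e <;> simp [e, Invol.mul_self_cancel zz]
    have sq : ∀ w ∈ closure ({z, t} : Set G), w * w = 1 := fun w hw => by
      rcases hV w hw with rfl | rfl | rfl | rfl
      exacts [one_mul 1, zz, t2, by rw [← pow_two, ztc.mul_pow, pow_two, pow_two, zz, t2, one_mul]]
    haveI := LES.abelian_of_sq sq
    have hz : z ∈ closure ({z, t} : Set G) := subset_closure (by simp)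
    have ht : t ∈ closure ({z, t} : Set G) := subset_closure (by simp)
    refine (S0058.result (closure {z, t}) O (fun hc => ?_) ?_ ?_).ge.trans (iSup₂_le fun w hw o ho => ?_)
    · obtain ⟨g, hg⟩ := hc.exists_generator
      have k : ∀ w : closure ({z, t} : Set G), (w : G) ≠ 1 → w = g := fun w h =>
        (LES.mem_zp (Invol.orderOf_two_iff.2 ⟨Subtype.ext (sq g g.2), fun e => h (by
          have := hg w; rw [e, zpowers_one_eq_bot, mem_bot] at this; rw [this]; rfl)⟩)).1 (hg w) |>.resolve_left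
          fun e => h (by rw [e]; rfl)
      exact tz (congrArg Subtype.val ((k ⟨t, ht⟩ fun e => z1 (cj_one.1 (uz.trans e))).trans (k ⟨z, hz⟩ z1).symm))
    · refine ((closure_le Y).2 ?_).trans ?_
      · rintro _ (rfl | rfl); exacts [zY, tY]
      · exact fun g hg => mem_normalizer_fintype fun _ ⟨o, ho, e⟩ =>
          e ▸ ⟨_, (inferInstance : (pPrimeCore 2 Y).Normal).conj_mem o ho ⟨g, hg⟩, rfl⟩
    · obtain ⟨k, hk⟩ := IsPGroup.iff_card.1 (show IsPGroup 2 (closure ({z, t} : Set G)) from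
        fun w => ⟨1, Subtype.ext (by simpa [pow_two] using sq w w.2)⟩)
      rw [hk]; exact (Nat.coprime_two_left.2 oO).pow_left k
    · have hc : Commute o w := memC.1 ho.2
      rcases hV w hw.1 with rfl | rfl | rfl | rfl
      · exact absurd rfl hw.2
      · exact ho.2
      · exact key u uc hne o ho.1 (uz ▸ hc)
      · refine key u⁻¹ uc.inv_left (fun h => hne ?_) o ho.1 (cj_inv ut ▸ hc)
        have := (cj_comm (g := u)).2 h.eq
        rw [← cj_mul u u⁻¹, mul_inv_cancel, map_one, MulAut.one_apply] at this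
        exact this.symm
  have A : ∀ g, Commute g c → Commute g d → Commute g z := fun g e1 e2 => by
    obtain ⟨o, ho, k, hk, e⟩ := Invol.Isolated.factor iso ⟨g, mY g e1 (.inl (cj_eq.2 e2.eq))⟩
    rw [show g = o * k from congrArg Subtype.val e]
    exact Commute.mul_left (memC.1 (hO ⟨o, ho, rfl⟩)) (congrArg Subtype.val hk.eq)
  have uniq' : ∀ g, Commute (κ g⁻¹ c) z → Commute (κ g⁻¹ d) z → g ∈ centralizer {z} := fun g e1 e2 => by
    have k : ∀ w, Commute (κ g⁻¹ w) z → Commute (κ g z) w := fun w e => by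
      have := (cj_comm (g := g)).2 e.symm.eq
      rwa [← cj_mul g g⁻¹, mul_inv_cancel, map_one, MulAut.one_apply] at this
    exact memC.2 (cj_eq.1 (uniq g (A _ (k c e1) (k d e2)) e1 e2))
  let D : Subgroup G :=
    { carrier := {w | w ∈ centralizer {z} ∧ InD c d w}
      one_mem' := ⟨one_mem _, by simp [InD]⟩
      mul_mem' := fun {e f} he hf => ⟨mul_mem he.1 hf.1, Commute.mul_left he.2.1 hf.2.1, Commute.mul_left he.2.2.1 hf.2.2.1, by
        rw [← pow_three', Commute.mul_pow (h3 e he.1 he.2 f hf.1 hf.2).1.symm, pow_three', pow_three', he.2.2.2, hf.2.2.2,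
          one_mul]⟩
      inv_mem' := fun {e} he => ⟨inv_mem he.1, Commute.inv_left he.2.1, Commute.inv_left he.2.2.1, by
        rw [← pow_three', inv_pow, pow_three', he.2.2.2, inv_one]⟩ }
  have cD : c ∈ D := ⟨memC.2 cz, cd.1⟩
  have dD : d ∈ D := ⟨memC.2 dz, cd.2⟩
  have u3 : u * u * u = 1 := by rw [← nc, ← map_mul, ← map_mul, cd.1.2.2, map_one]
  obtain ⟨g, hg⟩ := exists_conj_of_norm (p := 3) (D := D) (E := zpowers c ⊔ zpowers u)
    (fun w => ⟨1, Subtype.ext (by simpa [pow_three'] using w.2.2.2.2)⟩) (fun g hg ⟨k, hk⟩ => by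
      have m : g⁻¹ ∈ centralizer {z} := uniq' g⁻¹ (by rw [inv_inv]; exact memC.1 (hg c cD).1)
        (by rw [inv_inv]; exact memC.1 (hg d dD).1)
      rw [inv_mem_iff] at m
      have g3 : g * g * g = 1 := by
        rw [← pow_three', ← orderOf_dvd_iff_pow_eq_one]
        exact (Nat.Coprime.dvd_mul_right (k := orderOf g) (m := 3) (n := 8) (Nat.Coprime.coprime_dvd_left
          (orderOf_dvd_of_pow_eq_one hk) (Nat.Coprime.pow_left k (by decide)))).1 (orderOf_dvd_of_pow_eq_one (h2 g m).1)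
      exact ⟨m, (h2 g m).2 g3 _ (hg c cD).1 (cj_eq.1 rfl) (hg c cD).2 _ (hg d dD).1 (cj_eq.1 rfl) (hg d dD).2⟩)
    (IsPGroup.to_sup_of_normal_left' (Invol.isPGroup_zpowers (n := 1) (by rw [pow_one, pow_three', cd.1.2.2]))
      (Invol.isPGroup_zpowers (n := 1) (by rw [pow_one, pow_three', u3])) (zpowers_le.2 (mem_normalizer_fintype fun w hw => by
        obtain ⟨k, rfl⟩ := mem_zpowers_iff.1 hw
        rw [(uc.zpow_right k).eq, mul_inv_cancel_right]; exact hw)))
  have e1 := hg c (mem_sup_left (mem_zpowers c))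
  have e2 := hg u (mem_sup_right (mem_zpowers u))
  obtain ⟨f1, f2⟩ := (h3 _ e1.1 e1.2 _ e2.1 e2.2).2 fun e => c1 (cj_one.1 e)
  have n1 : κ (κ g n) (κ g c) = κ g u := by rw [← cj_cj, nc]
  have n2 : κ (κ g n) (κ g u) = κ g c * κ g c := by rw [← cj_cj, nu, map_mul]
  refine f1 (κ g n) ?_ (cj_eq.1 n1) (cj_eq.1 n2)
  have k1 : Commute z (κ (κ g n)⁻¹ (κ g u)) := by rw [cj_inv n1]; exact (memC.1 e1.1).symm
  have k2 : Commute z (κ (κ g n)⁻¹ (κ g c)) := by
    have : κ g c = κ g c * κ g c * (κ g c * κ g c) := by rw [← mul_assoc, e1.2.2.2, one_mul]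
    rw [this, map_mul, cj_inv n2]; exact Commute.mul_right (memC.1 e2.1).symm (memC.1 e2.1).symm
  have k : ∀ w, In3 (κ g c) w ∨ In3 (κ g c) (κ g u * w) ∨ In3 (κ g c) (κ g u * κ g u * w) → Commute (κ (κ g n)⁻¹ w) z :=
    fun w hw => by
      have j : ∀ w, In3 (κ g c) w → Commute z (κ (κ g n)⁻¹ w) := fun w hw => by
        rcases hw with rfl | rfl | rfl
        exacts [by simp, k2, by rw [map_mul]; exact k2.mul_right k2]
      rcases hw with h | h | h
      · exact (j _ h).symm
      · simpa only [map_mul, inv_mul_cancel_left] using (k1.inv_right.mul_right (j _ h)).symm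
      · have := j _ h
        rw [map_mul, map_mul] at this
        simpa only [inv_mul_cancel_left] using ((k1.mul_right k1).inv_right.mul_right this).symm
  have := f2 fun h => tz (by
    have : In3 c u := by simpa only [In3, ← map_mul, cj_inj, cj_one] using h
    rw [← uz, cj_eq.2 (this.comm cz.symm).symm.eq])
  exact uniq' _ (k _ this.1) (k _ this.2)

end Cfsg.Agent.U4R
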