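import Cfsg.Agent.U4R.Loc
import Cfsg.Agent.Spor.J.U4N
import Cfsg.Agent.HJ.Three

/-! The elementary abelian subgroups of order 16 and their normalisers (helper24): `Amal.dec`, `Amal.base`,
`Amal.rel8`, `Amal.rel5`, `Amal.idN` (identities in `2^4:A6`). -/

set_option autoImplicit false
set_option maxRecDepth 100000

namespace Cfsg.Agent.U4R

open Cfsg.Agent.HJ Cfsg.Agent.Comp Cfsg.Agent.Spor Subgroup

variable {G : Type*} [Group G]

theorem ev_eq_of_fin {g : ℕ → G} {nets : List Net} {N nl K : ℕ} (ok : netsOk N nets = true)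
    (hf : chkFin nets N 0 (List.range nl) 0 N K = true) (est : ESt g nets N (1 : G) 0 K) (u w : List ℕ)
    (h : andB (chkLet (List.range nl) [u, w]) (Nat.beq (appW nets u 1) (appW nets w 1)) = true) : ev g u = ev g w := by
  obtain ⟨⟨-, hN⟩, f, f0, k⟩ := fin_sound ok hf est
  obtain ⟨h1, h2⟩ := (andB_eq_true _ _).1 h
  rw [zero_add] at hN k
  simp only [chkLet, List.all_eq_true, List.contains_iff_mem] at h1
  have a := (k u (h1 u (by simp)) 0 ⟨le_rfl, hN⟩).2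
  have b := (k w (h1 w (by simp)) 0 ⟨le_rfl, hN⟩).2
  have c := appW_testBit ok u 1 0
  rw [Nat.eq_of_beq_eq_true h2, appW_testBit' ok, Nat.testBit_one_zero, Nat.testBit_one_eq_true_iff_self_eq_zero,
    Equiv.Perm.inv_eq_iff_eq] at c
  rw [c, ← b, f0, smul_eq_mul, smul_eq_mul] at a
  exact mul_right_cancel a

/-- Finite conjunction. -/
def bigAnd (n : ℕ) (φ : ℕ → Fm) : Fm := Nat.rec (motive := fun _ => Fm) (.eq 1 1) (fun k ih => .and (φ k) ih) n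
/-- Finite disjunction. -/
def bigOr (n : ℕ) (φ : ℕ → Fm) : Fm := Nat.rec (motive := fun _ => Fm) (.not (.eq 1 1)) (fun k ih => .or (φ k) ih) n

theorem sat_bigAnd {H : Subgroup G} {g ρ : ℕ → G} {n : ℕ} {φ : ℕ → Fm} :
    (bigAnd n φ).sat H g ρ ↔ ∀ k < n, (φ k).sat H g ρ := by
  induction n with
  | zero => exact ⟨fun _ _ h => absurd h (Nat.not_lt_zero _), fun _ => rfl⟩
  | succ n ih => exact (and_congr_right' ih).trans (and_comm.trans Nat.forall_lt_succ_right.symm)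

theorem sat_bigOr {H : Subgroup G} {g ρ : ℕ → G} {n : ℕ} {φ : ℕ → Fm} :
    (bigOr n φ).sat H g ρ ↔ ∃ k < n, (φ k).sat H g ρ := by
  induction n with
  | zero => exact ⟨fun h => absurd rfl h, fun ⟨_, h, _⟩ => absurd h (Nat.not_lt_zero _)⟩
  | succ n ih => exact (or_congr_right ih).trans (or_comm.trans Nat.exists_lt_succ_right.symm)

/-- The element with coordinates `k`. -/
def ve {M : Type*} [Mul M] [One M] (z s p a : M) (k : ℕ) : M :=
  cond (k.testBit 0) z 1 * cond (k.testBit 1) s 1 * cond (k.testBit 2) p 1 * cond (k.testBit 3) a 1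

theorem val_ve (g ρ : ℕ → G) (z s p a : Tm) (k : ℕ) : (ve z s p a k).val (· * ·) 1 g ρ =
    ve (z.val (· * ·) 1 g ρ) (s.val (· * ·) 1 g ρ) (p.val (· * ·) 1 g ρ) (a.val (· * ·) 1 g ρ) k := by
  unfold ve
  cases k.testBit 0 <;> cases k.testBit 1 <;> cases k.testBit 2 <;> cases k.testBit 3 <;> rfl

theorem cj_ve (h z s p a : G) (k : ℕ) : κ h (ve z s p a k) = ve (κ h z) (κ h s) (κ h p) (κ h a) k := by
  unfold ve
  cases k.testBit 0 <;> cases k.testBit 1 <;> cases k.testBit 2 <;> cases k.testBit 3 <;> simp only [cond, map_mul, map_one]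

theorem pow_act {φ : ℕ → G} {h : G} {T : ℕ → ℕ} (A : ∀ k < 16, T k < 16 ∧ κ h (φ k) = φ (T k)) (n : ℕ) :
    ∀ k < 16, T^[n] k < 16 ∧ κ (h ^ n) (φ k) = φ (T^[n] k) := by
  induction n with
  | zero => exact fun k hk => ⟨hk, by simp⟩
  | succ n ih => exact fun k hk => by rw [pow_succ, cj_mul, (A k hk).2]; exact ih _ (A k hk).1

/-- The relators of the amalgam. -/
def baseRels : List (List ℕ) := JU4H.rels ++
  [[11, 11], [7, 8, 11, 8, 11], [7, 11, 7, 11], [9, 11, 4, 11, 4], [10, 11, 5, 11, 5], [11, 6, 11, 6, 11, 6]]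

/-- The letters of `2^4:A6`. -/
def dN : List (List ℕ) := [[2, 0], [1, 3], [4], [5], [6], [7], [8], [9], [10], [11]]

namespace Amal

open F HJ.F

variable {x y p r q s z a b v : G} (M : Amal x y p r q s z a b v)
include M

theorem dec (φ : Fm) (h : φ.dec 1152 TH.mu TH.gc (fun _ => 0) = true) :
    φ.sat (centralizer {z}) (lets x y p r q s z a b 1) fun _ => 1 :=
  let ⟨_, R, c⟩ := TH.exists_reg (lets_ge' x y p r q s z a b) M.rels M.z1; M.cen ▸ R.sound c φ h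

theorem card : Nat.card (centralizer ({z} : Set G)) = 1152 :=
  let ⟨_, R, _⟩ := TH.exists_reg (lets_ge' x y p r q s z a b) M.rels M.z1; M.cen ▸ R.card

theorem eqs : (p * p = 1 ∧ r * r = 1 ∧ q * q = 1 ∧ s * s = 1 ∧ z * z = 1 ∧ a * a = 1 ∧ b * b = 1) ∧
    z * s * z * s = 1 ∧ s ≠ z ∧ a ≠ z ∧ z * (z * s) = s ∧ q * (z * s) = s * q ∧ x * s * z = z * (x * s) :=
  M.dec (((F.p * F.p ≐ 1) ⋏ (F.r * F.r ≐ 1) ⋏ (F.q * F.q ≐ 1) ⋏ (F.s * F.s ≐ 1) ⋏ (F.z * F.z ≐ 1) ⋏ (F.a * F.a ≐ 1) ⋏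
    (F.b * F.b ≐ 1)) ⋏ (F.z * F.s * F.z * F.s ≐ 1) ⋏ ne F.s F.z ⋏ ne F.a F.z ⋏ (F.z * (F.z * F.s) ≐ F.s) ⋏
    (F.q * (F.z * F.s) ≐ F.s * F.q) ⋏ cm (F.x * F.s) F.z) (by decide +kernel)

theorem zz : z * z = 1 := M.eqs.1.2.2.2.2.1

theorem idH {ws : List (List ℕ)} (h : andB (chkLet (List.range 11) ws) (Spor.allL ws fun w => chkPt JU4H.nets w 0 0) = true) :
    ∀ w ∈ ws, ev (lets x y p r q s z a b v) w = 1 :=
  rels_congr (n := 11) (ev_one_of_fin JU4H.ok JU4H.fin (JU4H.est rfl M.rels fun _ h => nomatch h) h)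
    (fun n hn => by interval_cases n <;> rfl) ((andB_eq_true _ _).1 h).1

theorem vcj (u : G) : 1 * v * u * v = κ v u := by rw [MulAut.conj_apply, inv_of_sq M.vv, one_mul]

theorem base : ∀ w ∈ baseRels, ev (lets x y p r q s z a b v) w = 1 := by
  refine List.forall_mem_append.2 ⟨M.idH (by decide +kernel), ?_⟩
  simp only [List.forall_mem_cons]
  obtain ⟨⟨pp, rr, qq, ss, zz, aa, bb⟩, e, -⟩ := M.eqs
  refine ⟨(congrArg (· * v) (one_mul v)).trans M.vv, ?_, ?_, ?_, ?_, ?_, by simp⟩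
  · change 1 * v * z * v * z * s = 1; rw [M.vcj, M.vz, e]
  · change 1 * v * s * v * s = 1; rw [M.vcj, M.vs, ss]
  · change 1 * p * v * p * v * a = 1; rw [one_mul, M.va, aa]
  · change 1 * r * v * r * v * b = 1; rw [one_mul, M.vb, bb]
  · change 1 * q * v * q * v * q * v = 1
    rw [one_mul, M.br, Invol.mul_self_cancel' M.vv, Invol.mul_self_cancel' qq, M.vv]

omit M in
theorem vact {P A : G} (vv : v * v = 1) (pp : P * P = 1) (aa : A * A = 1) (h : P * v * P * v = A) :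
    κ v P = P * A ∧ κ v A = A := by
  refine ⟨?_, ?_⟩
  · rw [← h]; simp [inv_of_sq vv, mul_assoc, Invol.mul_self_cancel pp]
  · nth_rw 2 [← inv_of_sq aa]; rw [← h]; simp [inv_of_sq vv, inv_of_sq pp, mul_assoc, vv]

theorem pow_mem {P A : G} (ip ia : ℕ) (t : Tm) (hp : lets x y p r q s z a b 1 ip = P)
    (ha : lets x y p r q s z a b 1 ia = A) (hv : κ v P = P * A ∧ κ v A = A)
    (T : ℕ → ℕ) (n : ℕ) (hT : ∀ k < 16, T k < 16 ∧ T^[n] k = k)
    (h1 : (bigAnd 16 fun k => t * ve (F.z * F.s) F.s (.g ip * .g ia) (.g ia) k ≐ ve F.z F.s (.g ip) (.g ia) (T k) * t).dec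
      1152 TH.mu TH.gc (fun _ => 0) = true)
    (h2 : (Fm.all ((bigAnd 16 fun k => cm u0 (ve F.z F.s (.g ip) (.g ia) k)) ⟹ (u0 * u0 ≐ 1) ⋏
      bigOr 16 fun k => u0 ≐ ve F.z F.s (.g ip) (.g ia) k)).dec 1152 TH.mu TH.gc (fun _ => 0) = true)
    {h : G} (hh : t.val (· * ·) 1 (lets x y p r q s z a b 1) (fun _ => 1) * v = h) :
    h ^ (2 * n) = 1 ∧ ∃ j < 16, h ^ n = ve z s P A j ∧ ve z s P A j = ve z s P A (T j) := by
  subst hp ha
  set g := lets x y p r q s z a b 1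
  have A1 : ∀ k < 16, T k < 16 ∧ κ h (ve z s (g ip) (g ia) k) = ve z s (g ip) (g ia) (T k) := fun k hk => ⟨(hT k hk).1, by
    have : t.val (· * ·) 1 g (fun _ => 1) * (ve (F.z * F.s) F.s (Tm.g ip * Tm.g ia) (Tm.g ia) k).val (· * ·) 1 g (fun _ => 1) =
      (ve F.z F.s (Tm.g ip) (Tm.g ia) (T k)).val (· * ·) 1 g (fun _ => 1) * t.val (· * ·) 1 g (fun _ => 1) :=
      sat_bigAnd.1 (M.dec _ h1) k hk
    rw [val_ve, val_ve] at this
    rw [← hh, cj_mul, cj_ve, M.vz, M.vs, hv.1, hv.2]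
    exact cj_eq.2 this⟩
  have A2 : ∀ k < 16, h ^ n * ve z s (g ip) (g ia) k = ve z s (g ip) (g ia) k * h ^ n := fun k hk =>
    cj_eq.1 ((pow_act A1 n k hk).2.trans (by rw [(hT k hk).2]))
  have A3 : ∀ u ∈ centralizer {z}, (bigAnd 16 fun k => cm u0 (ve F.z F.s (.g ip) (.g ia) k)).sat (centralizer {z}) g
      (scons u fun _ => 1) → u * u = 1 ∧ (bigOr 16 fun k => u0 ≐ ve F.z F.s (.g ip) (.g ia) k).sat (centralizer {z}) g
      (scons u fun _ => 1) := M.dec _ h2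
  have A4 : h ^ n * (z * 1 * 1 * 1) = z * 1 * 1 * 1 * h ^ n := A2 1 (by decide)
  obtain ⟨e1, e2⟩ := A3 (h ^ n) (memC.2 (by simpa using A4)) (sat_bigAnd.2 fun k hk => by
    change h ^ n * (ve F.z F.s (Tm.g ip) (Tm.g ia) k).val (· * ·) 1 g _ =
      (ve F.z F.s (Tm.g ip) (Tm.g ia) k).val (· * ·) 1 g _ * h ^ n
    rw [val_ve]; exact A2 k hk)
  obtain ⟨j, hj, e⟩ := sat_bigOr.1 e2
  change h ^ n = (ve F.z F.s (Tm.g ip) (Tm.g ia) j).val (· * ·) 1 g _ at e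
  rw [val_ve] at e
  refine ⟨by rw [two_mul, pow_add]; exact e1, j, hj, e, ?_⟩
  have : h ^ n = ve z s (g ip) (g ia) j := e
  rw [← (A1 j hj).2, ← this, cj_eq.2 ((Commute.refl h).pow_right n).eq]

theorem fpf {P A : G} (ip ia : ℕ) (hp : lets x y p r q s z a b 1 ip = P) (ha : lets x y p r q s z a b 1 ia = A)
    (T : ℕ → ℕ) (h1 : (bigAnd 15 fun k => ne (ve F.z F.s (.g ip) (.g ia) (k + 1))
      (ve F.z F.s (.g ip) (.g ia) (T (k + 1)))).dec 1152 TH.mu TH.gc (fun _ => 0) = true) {u : G}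
    (h : ∃ j < 16, u = ve z s P A j ∧ ve z s P A j = ve z s P A (T j)) : u = 1 := by
  subst hp ha
  obtain ⟨_ | j, hj, rfl, e⟩ := h
  · change (1 * 1 * 1 * 1 : G) = 1; simp
  · have : (ve F.z F.s (Tm.g ip) (Tm.g ia) (j + 1)).val (· * ·) 1 (lets x y p r q s z a b 1) (fun _ => 1) ≠
      (ve F.z F.s (Tm.g ip) (Tm.g ia) (T (j + 1))).val (· * ·) 1 (lets x y p r q s z a b 1) (fun _ => 1) :=
      sat_bigAnd.1 (M.dec _ h1) j (by omega)
    rw [val_ve, val_ve] at this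
    exact absurd e this

theorem vp : κ v p = p * a ∧ κ v a = a := vact M.vv M.eqs.1.1 M.eqs.1.2.2.2.2.2.1 M.va
theorem vr : κ v r = r * b ∧ κ v b = b := vact M.vv M.eqs.1.2.1 M.eqs.1.2.2.2.2.2.2 M.vb

theorem rel8 : (x * y * v) ^ 8 = 1 ∧ (x * y⁻¹ * q * v) ^ 8 = 1 :=
  ⟨(M.pow_mem 4 9 (F.x * F.y) rfl rfl M.vp (nthL 0 [0, 5, 4, 1, 8, 13, 12, 9, 14, 11, 10, 15, 6, 3, 2, 7]) 4
    (by decide +kernel) (by decide +kernel) (by decide +kernel) rfl).1,
  (M.pow_mem 5 10 (F.x * F.Y * F.q) rfl rfl M.vr (nthL 0 [0, 7, 6, 1, 14, 9, 8, 15, 12, 11, 10, 13, 2, 5, 4, 3]) 4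
    (by decide +kernel) (by decide +kernel) (by decide +kernel) rfl).1⟩

theorem rel5 : (x * y * r * v) ^ 5 = 1 ∧ (x * y⁻¹ * v) ^ 5 = 1 :=
  ⟨M.fpf 4 9 rfl rfl _ (by decide +kernel) (M.pow_mem 4 9 (F.x * F.y * F.r) rfl rfl M.vp
    (nthL 0 [0, 5, 4, 1, 12, 9, 8, 13, 11, 14, 15, 10, 7, 2, 3, 6]) 5
    (by decide +kernel) (by decide +kernel) (by decide +kernel) rfl).2,
  M.fpf 5 10 rfl rfl _ (by decide +kernel) (M.pow_mem 5 10 (F.x * F.Y) rfl rfl M.vr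
    (nthL 0 [0, 6, 7, 1, 12, 10, 11, 13, 14, 8, 9, 15, 2, 4, 5, 3]) 5
    (by decide +kernel) (by decide +kernel) (by decide +kernel) rfl).2⟩

theorem relW : ∀ w ∈ [(List.replicate 8 [11, 2, 0]).flatten, (List.replicate 8 [11, 6, 3, 0]).flatten,
    (List.replicate 5 [11, 5, 2, 0]).flatten, (List.replicate 5 [11, 3, 0]).flatten],
    ev (lets x y p r q s z a b v) w = 1 := by
  simp only [List.forall_mem_cons, ev_rep]
  refine ⟨?_, ?_, ?_, ?_, by simp⟩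
  · change (1 * x * y * v) ^ 8 = 1; rw [one_mul, M.rel8.1]
  · change (1 * x * y⁻¹ * q * v) ^ 8 = 1; rw [one_mul, M.rel8.2]
  · change (1 * x * y * r * v) ^ 5 = 1; rw [one_mul, M.rel5.1]
  · change (1 * x * y⁻¹ * v) ^ 5 = 1; rw [one_mul, M.rel5.2]

theorem idN (u w : List ℕ)
    (h : andB (chkLet (List.range 10) [u, w]) (Nat.beq (appW JU4N.nets u 1) (appW JU4N.nets w 1)) = true) :
    ev (lets x y p r q s z a b v) (renW dN u) = ev (lets x y p r q s z a b v) (renW dN w) := by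
  rw [← ev_renG, ← ev_renG]
  refine ev_eq_of_fin JU4N.ok JU4N.fin (JU4N.est (renG_255 _ (by decide)) (renG_rels (rels_of_sub
    (List.forall_mem_append.2 ⟨M.idH (ws := (JU4N.rels.map (renW dN)).filter fun w => !w.contains 11) (by decide +kernel),
      List.forall_mem_append.2 ⟨M.base, M.relW⟩⟩) (by decide +kernel))) fun _ h => nomatch h) u w h

end Amal

end Cfsg.Agent.U4R
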